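import Cfsg.Agent.Shaw.Per
import Cfsg.Agent.S3360

/-!
Suzuki 2-groups with a solvable transitive automorphism group, V: the choice of `ξ`.
-/

set_option autoImplicit false

namespace Cfsg.Lib.Shaw

open Cfsg.Lib.Suz Cfsg.Lib.Chev.FieldAut

universe u

theorem exists_dvd_pow_mul (Q : ℕ) {N : ℕ} (hN : 0 < N) :
    ∃ j M : ℕ, Nat.Coprime M Q ∧ N ∣ M * Q ^ j := by
  induction N using Nat.strong_induction_on with
  | _ N ih =>
    by_cases h : Nat.Coprime N Q
    · exact ⟨0, N, h, by simp⟩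
    · obtain ⟨N', hN'⟩ := Nat.gcd_dvd_left N Q
      have h1 : 0 < Nat.gcd N Q := Nat.gcd_pos_of_pos_left _ hN
      have h2 : 1 < Nat.gcd N Q := lt_of_le_of_ne h1 (Ne.symm h)
      have h3 : 0 < N' := Nat.pos_of_mul_pos_left (hN' ▸ hN)
      obtain ⟨j, M, hM, hd⟩ := ih N' (by nlinarith) h3
      refine ⟨j + 1, M, hM, ?_⟩
      rw [hN', pow_succ, ← mul_assoc, mul_comm]
      exact Nat.mul_dvd_mul hd (Nat.gcd_dvd_right N Q)

variable {G : Type u} [Group G] [Finite G] {Z : Subgroup G}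

/-- Semilinear coordinates on `Z`. -/
theorem exists_semilinear (hG : IsPGroup 2 G) (hZ : ∀ x, x ∈ Z ↔ x * x = 1) (hbig : 2 < Nat.card Z)
    (Y : Subgroup (MulAut G)) (hs : Group.IsSolvable Y)
    (ht : ∀ x ∈ Z, ∀ y ∈ Z, x ≠ 1 → y ≠ 1 → ∃ a ∈ Y, a x = y) :
    ∃ (F : Type) (_ : Field F) (_ : Finite F) (_ : CharP F 2) (f : G → F),
      Nat.card F = Nat.card Z ∧ (∀ x ∈ Z, ∀ y ∈ Z, f (x * y) = f x + f y) ∧
      (∀ c, ∃ x ∈ Z, f x = c) ∧ (∀ x ∈ Z, f x = 0 ↔ x = 1) ∧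
      ∀ y : Y, ∃ (a : F) (σ : F ≃+* F), ∀ x ∈ Z, f ((y : MulAut G) x) = a * σ (f x) := by
  have hinv : ∀ (y : MulAut G), ∀ x ∈ Z, y x ∈ Z := fun y x hx =>
    (hZ _).2 (by rw [← map_mul, (hZ x).1 hx, map_one])
  obtain ⟨A, _, ⟨S⟩⟩ := exists_sec (E := (Set.univ : Set Y)) (act := fun y x => (y : MulAut G) x)
    (M := Z) (N := ⊥) bot_le (fun y _ => map_mul (y : MulAut G)) (fun y _ => hinv y)
    (fun y _ x hx => by rw [Subgroup.mem_bot.1 hx, map_one]; exact Subgroup.one_mem _)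
    fun x hx y hy => by
      simpa only [cm, mul_assoc] using
        cm_mem_of_sq (N := ⊥) (fun x hx => Subgroup.mem_bot.2 ((hZ x).1 hx)) hx hy
  have := S.finite
  have h2 : ∀ b : A, b + b = 0 := fun b => by
    obtain ⟨x, hx, rfl⟩ := S.π_surj b
    rw [← S.π_mul x hx x hx, (hZ x).1 hx, S.π_one]
  let _ : Module (ZMod 2) A := AddCommGroup.zmodModule fun b => by rw [two_nsmul, h2]
  have hcard : Nat.card A = Nat.card Z := by rw [S.card, Subgroup.card_bot, mul_one]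
  have hker : ∀ x ∈ Z, S.π x = 0 ↔ x = 1 := fun x hx => by rw [S.π_eq_zero x hx, Subgroup.mem_bot]
  have : Nontrivial A := Finite.one_lt_card_iff_nontrivial.1 (by omega)
  have hinj : ∀ y : Y, Function.Injective ((S.ρ y).toZModLinearMap 2) := fun y => by
    refine (injective_iff_map_eq_zero _).2 fun b hb => ?_
    obtain ⟨x, hx, rfl⟩ := S.π_surj b
    change S.ρ y (S.π x) = 0 at hb
    rw [← S.π_act y trivial x hx, hker _ (hinv _ x hx), map_eq_one_iff _ (y : MulAut G).injective]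
      at hb
    rw [hb, S.π_one]
  let φ : Y →* (A ≃ₗ[ZMod 2] A) := MonoidHom.mk' (fun y => LinearEquiv.ofBijective _
    ⟨hinj y, Finite.injective_iff_surjective.1 (hinj y)⟩) fun y y' => LinearEquiv.ext fun b => by
      obtain ⟨x, hx, rfl⟩ := S.π_surj b
      change S.ρ (y * y') (S.π x) = S.ρ y (S.ρ y' (S.π x))
      rw [← S.π_act _ trivial x hx, ← S.π_act _ trivial x hx, ← S.π_act _ trivial _ (hinv _ x hx)]
      rfl
  have hφ : ∀ y : Y, ∀ x ∈ Z, φ y (S.π x) = S.π ((y : MulAut G) x) := fun y x hx =>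
    (S.π_act y trivial x hx).symm
  have := Fact.mk Nat.prime_two
  have : Finite φ.range := Finite.of_surjective _ φ.rangeRestrict_surjective
  rcases Cfsg.Agent.S3360.result 2 (Group.isSolvable_of_surjective φ.rangeRestrict_surjective)
    φ.range.subtype φ.range.subtype_injective (fun v w hv hw => by
      obtain ⟨x, hx, rfl⟩ := S.π_surj v
      obtain ⟨x', hx', rfl⟩ := S.π_surj w
      obtain ⟨a, ha, e⟩ := ht x hx x' hx' (fun e => hv ((hker x hx).2 e))
        fun e => hw ((hker x' hx').2 e)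
      exact ⟨⟨φ ⟨a, ha⟩, _, rfl⟩, (hφ ⟨a, ha⟩ x hx).trans (congrArg S.π e)⟩) with
    ⟨F, _, _, e, he⟩ | h
  · refine ⟨F, inferInstance, inferInstance,
      CharTwo.of_one_ne_zero_of_two_eq_zero one_ne_zero ?_, fun x => e (S.π x),
      (Nat.card_congr e.toEquiv).symm.trans hcard, fun x hx y hy => ?_, fun c => ?_,
      fun x hx => ?_, fun y => ?_⟩
    · rw [← one_add_one_eq_two, ← e.apply_symm_apply 1, ← map_add, h2, map_zero]
    · simp only [S.π_mul x hx y hy, map_add]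
    · obtain ⟨x, hx, h⟩ := S.π_surj (e.symm c)
      exact ⟨x, hx, by simp only [h, e.apply_symm_apply]⟩
    · simp only [EmbeddingLike.map_eq_zero_iff, hker x hx]
    · obtain ⟨a, σ, h⟩ := he ⟨φ y, y, rfl⟩
      exact ⟨a, σ, fun x hx => (congrArg e (hφ y x hx).symm).trans (h _)⟩
  · exfalso
    obtain ⟨m, hm⟩ := IsPGroup.iff_card.1 (hG.to_subgroup Z)
    have h3 : 2 ∣ Nat.card A := by
      rw [hcard, hm]
      refine dvd_pow_self 2 ?_
      rintro rfl
      omega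
    simp only [Set.mem_insert_iff, Set.mem_singleton_iff] at h
    omega

theorem exists_HS (hG : IsPGroup 2 G) (hZ : ∀ x, x ∈ Z ↔ x * x = 1)
    (hc : ∀ z ∈ Z, ∀ x, z * x = x * z) (hbig : 2 < Nat.card Z)
    (Y : Subgroup (MulAut G)) (hs : Group.IsSolvable Y)
    (ht : ∀ x ∈ Z, ∀ y ∈ Z, x ≠ 1 → y ≠ 1 → ∃ a ∈ Y, a x = y) :
    ∃ (ξ : MulAut G) (F : Type) (_ : Field F) (_ : Finite F) (_ : CharP F 2),
      Nat.card F = Nat.card Z ∧ HS ξ ⊤ Z := by
  classical
  have hinv : ∀ (y : MulAut G), ∀ x ∈ Z, y x ∈ Z := fun y x hx =>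
    (hZ _).2 (by rw [← map_mul, (hZ x).1 hx, map_one])
  obtain ⟨F, _, _, _, f, hF, hadd, hsurj, hker, hY⟩ := exists_semilinear hG hZ hbig Y hs ht
  choose a σ hf using hY
  obtain ⟨z₁, hz₁, hz₁'⟩ := hsurj 1
  have hz₁1 : z₁ ≠ 1 := fun e => one_ne_zero (hz₁'.symm.trans ((hker z₁ hz₁).2 e))
  have hfinj : ∀ x ∈ Z, ∀ y ∈ Z, f x = f y → x = y := fun x hx y hy e => by
    have := (hker _ (Z.mul_mem hx (Z.inv_mem hy))).1 (by
      rw [hadd _ hx _ (Z.inv_mem hy), addOn_inv hadd hy, e, add_neg_cancel])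
    exact mul_inv_eq_one.1 this
  have ha : ∀ y : Y, f ((y : MulAut G) z₁) = a y := fun y => by
    rw [hf y z₁ hz₁, hz₁', map_one, mul_one]
  have ha0 : ∀ y, a y ≠ 0 := fun y e => hz₁1 ((y : MulAut G).injective
    (((hker _ (hinv _ z₁ hz₁)).1 ((ha y).trans e)).trans (map_one _).symm))
  have hmul : ∀ y y' c, a (y * y') * σ (y * y') c = a y * σ y (a y') * σ y (σ y' c) := by
    intro y y' c
    obtain ⟨x, hx, rfl⟩ := hsurj c
    rw [← hf _ x hx, mul_assoc, ← map_mul, ← hf _ x hx, ← hf _ _ (hinv _ x hx)]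
    rfl
  have hmul1 : ∀ y y', a (y * y') = a y * σ y (a y') := fun y y' => by simpa using hmul y y' 1
  let s : Y →* (F ≃+* F) := MonoidHom.mk' σ fun y y' => RingEquiv.ext fun c =>
    mul_left_cancel₀ (ha0 (y * y')) (by rw [hmul, ← hmul1]; rfl)
  have hs1 : ∀ y : s.ker, σ y = 1 := fun y => y.2
  let t : s.ker →* Fˣ := MonoidHom.mk' (fun y => Units.mk0 (a y) (ha0 y)) fun y y' =>
    Units.ext (by
      simp only [Subgroup.coe_mul, Units.val_mk0, Units.val_mul]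
      rw [hmul1, hs1]; rfl)
  obtain ⟨⟨_, y₀, rfl⟩, hy₀⟩ := IsCyclic.exists_generator (α := t.range)
  have hm : orderOf (t y₀) = Nat.card t.range := by
    rw [← orderOf_eq_card_of_forall_mem_zpowers hy₀]
    exact (Subgroup.orderOf_mk _ _).symm
  have h2 : ∃ c : F, c ≠ 0 ∧ c ≠ 1 := by
    by_contra! h0
    have h1 : Nat.card F ≤ ({0, 1} : Finset F).card := by
      have := Fintype.ofFinite F
      rw [Nat.card_eq_fintype_card]
      refine Finset.card_le_card fun x _ => ?_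
      by_cases hx : x = 0
      · simp [hx]
      · simp [h0 x hx]
    have h2 := Finset.card_le_two (a := (0 : F)) (b := 1)
    omega
  have hdvd : Nat.card F - 1 ∣ orderOf (t y₀) * Nat.log 2 (Nat.card F) := by
    have h1 : (MulAction.stabilizer Y z₁).index = Nat.card F - 1 := by
      rw [MulAction.index_stabilizer, hF, show Nat.card Z = (Z : Set G).ncard from rfl,
        ← Set.ncard_sdiff_singleton_of_mem (a := (1 : G)) Z.one_mem]
      congr 1
      ext x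
      refine ⟨?_, fun hx => ?_⟩
      · rintro ⟨y, rfl⟩
        exact ⟨hinv _ z₁ hz₁, fun e => hz₁1 ((y : MulAut G).injective (e.trans (map_one _).symm))⟩
      · obtain ⟨y, hy, e⟩ := ht z₁ hz₁ x hx.1 hz₁1 hx.2
        exact ⟨⟨y, hy⟩, e⟩
    have h3 : t.ker.map s.ker.subtype ≤ MulAction.stabilizer Y z₁ := by
      rintro _ ⟨y, hy, rfl⟩
      refine hfinj _ (hinv _ z₁ hz₁) _ hz₁ ?_
      rw [hz₁']
      exact (ha _).trans (congrArg Units.val hy)
    have h4 := Subgroup.index_dvd_of_le h3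
    rw [h1, Subgroup.index_map_subtype, Subgroup.index_ker, Subgroup.index_ker, ← hm] at h4
    refine h4.trans (Nat.mul_dvd_mul_left _ ?_)
    let _ : Algebra (ZMod 2) F := ZMod.algebra F 2
    have := Fact.mk Nat.prime_two
    rw [Module.natCard_eq_pow_finrank (K := ZMod 2) (V := F), Nat.card_zmod,
      Nat.log_pow one_lt_two, ← card_aut 2]
    exact Subgroup.card_subgroup_dvd_card _
  obtain ⟨j, M, hM, hd⟩ := exists_dvd_pow_mul (Nat.card F - 1) (orderOf_pos y₀)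
  let ξ : MulAut G := ((y₀ ^ M : s.ker) : Y)
  have hξ : ξ ^ (Nat.card F - 1) ^ j = 1 := by
    have h1 : (y₀ ^ M) ^ (Nat.card F - 1) ^ j = 1 := by
      rw [← pow_mul]; exact orderOf_dvd_iff_pow_eq_one.1 hd
    simpa [ξ] using congrArg (fun y : s.ker => ((y : Y) : MulAut G)) h1
  have hgood : Good (a (y₀ ^ M : s.ker)) := ⟨ha0 _, fun k hk => by
    have h1 : t y₀ ^ (M * k) = 1 := by
      rw [pow_mul, ← map_pow]
      exact Units.ext (by rw [Units.val_pow_eq_pow_val]; exact hk)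
    have h3 : orderOf (t y₀) ∣ Nat.card F - 1 := by
      rw [← Nat.card_units]; exact orderOf_dvd_natCard _
    exact hdvd.trans (Nat.mul_dvd_mul_right ((Nat.Coprime.coprime_dvd_right h3
      hM).symm.dvd_of_dvd_mul_left (orderOf_dvd_iff_pow_eq_one.2 h1)) _)⟩
  let zc : Co ξ Z ⊥ F := ⟨f, _, hgood.gd h2, bot_le, hinv ξ, hadd,
    fun x hx => by rw [hf _ x hx, hs1]; rfl, hsurj, fun x hx => by rw [hker x hx, Subgroup.mem_bot]⟩
  have hZ' : ∀ x, x ∈ Z ↔ x ∈ (⊤ : Subgroup G) ∧ x * x = 1 := fun x => by simp [hZ]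
  have h0 : H0 ξ ⊤ Z := ⟨hG.to_subgroup ⊤, fun _ _ => trivial, hZ', fun z hz x _ => hc z hz x,
    fun L hL x hx hxZ hx1 => zc.le_of_not_le bot_le hL hx hxZ fun e => hx1 (Subgroup.mem_bot.1 e),
    fun k x hx hx1 e => hF ▸ hgood.2 k (pow_eq_one_of_fix (hG.to_subgroup ⊤) hZ' zc hx hx1 e), hbig⟩
  exact ⟨ξ, F, inferInstance, inferInstance, inferInstance, hF, h0, h0.per_of hF zc (hF ▸ hξ)⟩

end Cfsg.Lib.Shaw
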